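/-
Faithful members of ℒ(G, T) form an upward closed set.
-/
import Cfsg.Agent.QT.Cmp4

set_option autoImplicit false
open Cfsg Subgroup CL.Grp CL.Even CL.Loc
open scoped commutatorElement

namespace CL.QT

variable {G : Type*} [Group G] [Finite G]

omit [Finite G] in
theorem moduleV_eq (Y : Subgroup G) : moduleV Y = ⁅omegaOneCenter 2 (pCoreOf 2 Y), Y⁆ := rfl

/-- If `L = O²(L)` is subnormal in `H ≤ J`, with `O₂(J) ≤ H` and `J` of characteristic two, and acts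
on `Ω₁Z(O₂(L))`, then it acts on `Ω₁Z(O₂(J))`. -/
theorem not_le_cent_ozc {L H J : Subgroup G} (hL : SubnIn L H) (hr : pResidualOf 2 L = L) (hHJ : H ≤ J)
    (hJ : IsCharP 2 J) (hO : pCoreOf 2 J ≤ H) (hV : moduleV L ≠ ⊥) :
    ¬ L ≤ 𝒞(omegaOneCenter 2 (pCoreOf 2 J)) := by
  intro hc
  have h1 : pCoreOf 2 H ≤ 𝒩(L) := hr ▸ core_le_norm_res hL
  have h2 : ⁅pCoreOf 2 H, L⁆ ≤ pCoreOf 2 L := by
    rw [Even.core_eq_inf_of_subnIn hL]
    exact le_inf (commutator_le_of_le_norm (hL.le.trans (self_le_norm_core H)))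
      (commutator_le_of_le_norm' h1)
  have h3 := pxq (K := L) (ozc_isP (p := 2) (pCoreOf 2 L))
    ((res_eq_bot_of_isPGroup (core_isP H)).le.trans bot_le) (le_norm_ozc (le_norm_core h1))
    (le_norm_ozc (self_le_norm_core L)) (h2.trans (le_cent_ozc _)) ?_
  · exact hV (commutator_eq_bot_iff'.2 (hr.ge.trans h3))
  rw [hr]
  have h4 := inf_le_right.trans (cent_mono (core_le_core_of_le hO hHJ)) (a := omegaOneCenter 2
    (pCoreOf 2 L) ⊓ 𝒞(pCoreOf 2 H))
  refine hc.trans (cent_mono (le_ozc (elem_of_le (ozc_elem _) inf_le_left) (hJ.le_core ?_ h4) h4))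
  exact inf_le_left.trans ((ozc_le _).trans ((core_le L).trans (hL.le.trans hHJ)))

theorem moduleV_ne_bot {K J : Subgroup G} (hK : SubnIn K J) (hr : pResidualOf 2 K = K)
    (h : ¬ K ≤ 𝒞(omegaOneCenter 2 (pCoreOf 2 J))) : moduleV K ≠ ⊥ := by
  intro hV
  have h1 : pCoreOf 2 J ≤ 𝒩(K) := hr ▸ core_le_norm_res hK
  have h2 : K ≤ 𝒩(omegaOneCenter 2 (pCoreOf 2 J)) := le_norm_ozc (hK.le.trans (self_le_norm_core J))
  have h3 := commutator_le_of_le_norm h2
  have h4 : ⁅omegaOneCenter 2 (pCoreOf 2 J), K⁆ ≤ omegaOneCenter 2 (pCoreOf 2 K) := by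
    refine le_ozc (elem_of_le (ozc_elem _) h3) ?_ (h3.trans ((ozc_le_cent _).trans
      (cent_mono (Even.core_le_core_of_subnIn hK))))
    rw [Even.core_eq_inf_of_subnIn hK]
    exact le_inf (h3.trans (ozc_le _)) (commutator_le_of_le_norm' ((ozc_le _).trans h1))
  have h5 := commutator_res_res (K := K) (ozc_isP (p := 2) (pCoreOf 2 J)) (hr.symm ▸ h2)
  rw [hr] at h5
  exact h (commutator_eq_bot_iff'.1 (le_bot_iff.1 (h5 ▸ (commutator_mono h4 le_rfl).trans hV.le)))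

theorem mem_calLf_of_le (hQ : IsQTKE G) (T : Sylow 2 G) {L K : Subgroup G}
    (hL : L ∈ calLf (T : Subgroup G)) (hK : K ∈ calL (T : Subgroup G)) (h : L ≤ K) :
    K ∈ calLf (T : Subgroup G) := by
  have hT := isSylowIn_top T
  obtain ⟨h1, -⟩ := (mem_calL hT).1 hL.1
  obtain ⟨h2, h3⟩ := (mem_calL hT).1 hK
  have h4 := not_le_cent_ozc h1.2 (res_of_perf h1.1.perf) (sup_le_sup_right h _)
    ((evenCh_of hQ.2.2 T).charP hT le_sup_right h3)
    ((core_le_syl (hT.of_le le_sup_right le_top)).trans le_sup_right) hL.2.2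
  exact ⟨hK, ⟨h2.1.ne, (odd_eq K).trans (res_of_perf h2.1.perf),
    isCharP_iff_fstar.1 (charP_of_calL hQ T hK)⟩,
    moduleV_ne_bot h2.2 (res_of_perf h2.1.perf) fun e => h4 (h.trans e)⟩

end CL.QT
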