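/-
Offenders of `2`-minimal groups on sections of `O₂`.
-/
import Cfsg.Agent.QT.PairMain
import Cfsg.Agent.Even.S4FMB

set_option autoImplicit false
set_option linter.unusedSectionVars false

open Cfsg Subgroup
open scoped commutatorElement

namespace CL.QT

open CL.Even CL.Loc CL.Grp

variable {G : Type*} [Group G] [Finite G] {H T M W Y : Subgroup G}

section hol

variable (hU : UMax T M H) (hT : IsSylowIn 2 T H) (hn : ¬ H ≤ 𝒩(T)) (hW : IsElementaryAbelian 2 W)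
  (hHW : H ≤ 𝒩(W)) (hO : pCoreOf 2 H ≤ 𝒞(W)) (hK : ¬ pResidualOf 2 H ≤ 𝒞(W))
include hU hT hn hW hHW hO hK

theorem hol_data : UMax (him[W] T) (him[W] M) (him[W] H) ∧ ¬ him[W] H ≤ 𝒩(him[W] T) ∧
    pCoreOf 2 (him[W] H) = ⊥ := by
  have hk := isKer_hψ W
  have hI := hU.pIrr hT hn
  have h1 := (hI.red hK hO).core_him hHW
  have hT' := gim_syl (ψ := hψ W) hHW hT
  refine ⟨hU.gim hk hHW ?_, fun e => hI.not_syl_le hT ?_, h1⟩
  · by_contra e
    exact hK ((hU.res_le hT inf_le_right (le_norm_inf (le_norm_cent hHW) le_normalizer) e).trans inf_le_left)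
  · exact (le_inf le_rfl ((hk.gim_eq_bot (hT.le.trans hHW)).1 (eq_bot_iff.2
      ((CL.Even.le_core hT'.le hT'.isPGroup e).trans h1.le)))).trans (hI.inf_cent_le_core hHW hK hT.le hT.isPGroup)

theorem not_cent_of_off (hY : Y ≤ H) (hb : IsBestOffenderOn 2 W Y) (hne : ¬ Y ≤ 𝒞(W)) : ¬ W ⊓ 𝒞(T) ≤ 𝒞(H) := by
  obtain ⟨h1, h2, h3⟩ := hol_data hU hT hn hW hHW hO hK
  have := not_le_cent_of_umax h1 (gim_syl hHW hT) h2 (hem_elem hW) ((him_le_norm le_rfl hHW).2 hHW) (him_faith H) h3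
    (gim_mono hY) (him_bestOffender (hY.trans hHW) hb) fun e => hne (((isKer_hψ W).gim_eq_bot (hY.trans hHW)).1 e)
  rwa [← hem_inf_cent le_rfl (hT.le.trans hHW), hem_le_cent inf_le_left hHW] at this

theorem no_over (hY : Y ≤ H) (hY' : IsElementaryAbelian 2 Y) :
    offM W Y ≤ Nat.card (Y ⊓ 𝒞(W) : Subgroup G) * Nat.card W := by
  obtain ⟨h1, h2, h3⟩ := hol_data hU hT hn hW hHW hO hK
  have hT' := gim_syl (ψ := hψ W) hHW hT
  have hP := (him_le_norm le_rfl hHW).2 hHW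
  have he : IsElementaryAbelian 2 (him[W] Y) := elem_map _ (elem_subgroupOf hY' _)
  rw [← offM_him (hY.trans hHW), ← card_hem (V := W) le_rfl]
  refine Nat.mul_le_mul_left _ ?_
  by_contra e
  obtain ⟨B, hB, h4, -, h5⟩ := exists_best_le (V := hem W W) he (fun e' => e (by rw [e', offM_bot])) (not_le.1 e).le
  exact e (no_over_of_umax h1 hT' h2 (hem_elem hW) hP (him_faith H) (not_le_cent_of_umax h1 hT' h2 (hem_elem hW) hP
    (him_faith H) h3 (hB.trans (gim_mono hY)) h5 h4) h3 _ (gim_mono hY) he)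

end hol

/-- failure of factorization on `Ω₁Z(O₂(H))` -/
theorem pmf_of (hH : IsCharP 2 H) (hU : UMax T M H) (hT : IsSylowIn 2 T H) (hJ : ¬ H ≤ 𝒩(𝐉[2] T))
    (hK : ¬ pResidualOf 2 H ≤ 𝒞(𝛀[2] (pCoreOf 2 H))) : PMF 2 H T M (𝛀[2] (pCoreOf 2 H)) := by
  have hn : ¬ H ≤ 𝒩(T) := fun e => hJ (le_norm_thom e)
  have hHW := le_norm_ozc (p := 2) (self_le_norm_core (p := 2) H)
  have hI := hU.pIrr hT hn
  obtain ⟨A, hA, h1⟩ : ∃ A ∈ meaIn 2 T, ¬ A ≤ 𝒞(𝛀[2] (pCoreOf 2 H)) := by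
    by_contra! h1
    refine hJ ?_
    rw [← thompsonSubgroupOf_eq_of_le ((le_inf (thompsonSubgroupOf_le T) (thompsonSubgroupOf_le_iff.2 h1)).trans
      (hI.inf_cent_le_core hHW hK hT.le hT.isPGroup)) (core_le_syl hT)]
    exact le_norm_thom (self_le_norm_core H)
  refine ⟨hH, hT, hU, rfl, fun e => not_cent_of_off hU hT hn (ozc_elem _) hHW (le_cent_ozc _) hK (hA.1.trans hT.le)
    (bestOffender_of_mem_meaIn ((ozc_le _).trans (core_le_syl hT)) (ozc_elem _) hA) h1 ?_, hJ⟩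
  rw [ozc_core_inf_cent hH hT]
  exact le_centralizer_iff.1 e

section sec

variable (hU : UMax T M H) (hT : IsSylowIn 2 T H) (hn : ¬ H ≤ 𝒩(T)) (hY : Y ≤ H) (hY' : IsElementaryAbelian 2 Y)
include hU hT hn hY hY'

theorem no_over_sec₀ {U₁ U₂ X : Subgroup G} (h₂ : IsElementaryAbelian 2 U₂) (hO : U₂ ≤ pCoreOf 2 H)
    (n₁ : H ≤ 𝒩(U₁)) (n₂ : H ≤ 𝒩(U₂)) (hc : ⁅U₂, pCoreOf 2 H⁆ ≤ U₁) (hK : ¬ ⁅U₂, pResidualOf 2 H⁆ ≤ U₁)
    (h₁ : U₁ ≤ X) (hX : X ≤ U₂) (hXY : ⁅X, Y⁆ ≤ U₁) :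
    Nat.card Y * Nat.card X ≤ Nat.card (Y ⊓ pCoreOf 2 H : Subgroup G) * Nat.card U₂ := by
  have hk := isKer_qmk U₁
  generalize qmk U₁ = ψ at hk
  have hO₁ := (h₁.trans hX).trans hO
  have m₂ := (hO.trans (core_le H)).trans n₁
  have hI := hU.pIrr hT hn
  have hT' := gim_syl (ψ := ψ) n₁ hT
  have hcore : pCoreOf 2 (gim ψ H) ≤ gim ψ (pCoreOf 2 H) := by
    rw [← gim_inf_gpre (core_le (p := 2) (gim ψ H))]
    refine gim_mono (CL.Even.le_core inf_le_left (hk.isPGroup_of_gim ((core_isP H).to_le hO₁) (inf_le_left.trans n₁) ?_)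
      (le_norm_inf_gpre n₁ le_normalizer n₁ (self_le_norm_core _)))
    rw [gim_inf_gpre (core_le _)]
    exact core_isP _
  have hK' : ¬ pResidualOf 2 (gim ψ H) ≤ 𝒞(gim ψ U₂) := by
    rwa [← gim_res n₁, hk.gim_le_cent_iff ((res_le H).trans n₁) m₂, commutator_comm]
  have h := no_over (hU.gim hk n₁ (inf_le_left.trans (hO₁.trans ((core_le_syl hT).trans hU.le)))) hT'
    (fun e => hn (by
      rwa [hk.gim_le_norm_iff n₁ (hT.le.trans n₁), sup_eq_left.2 (hO₁.trans (core_le_syl hT))] at e))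
    (elem_map _ (elem_subgroupOf h₂ _)) (gim_le_norm n₁ m₂ n₂)
    (hcore.trans ((hk.gim_le_cent_iff ((core_le H).trans n₁) m₂).2 (commutator_comm U₂ _ ▸ hc))) hK'
    (gim_mono hY) (elem_map _ (elem_subgroupOf hY' _))
  have e1 : gim ψ Y ⊓ 𝒞(gim ψ U₂) ≤ gim ψ (Y ⊓ pCoreOf 2 H) := by
    rw [← gim_inf_gpre (inf_le_left : gim ψ Y ⊓ 𝒞(gim ψ U₂) ≤ gim ψ Y)]
    refine gim_mono (le_inf inf_le_left ?_)
    have h3 : Y ⊓ gpre ψ (gim ψ Y ⊓ 𝒞(gim ψ U₂)) ≤ H ⊓ cmod U₂ U₁ := by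
      refine le_inf (inf_le_left.trans hY) (le_cmod ((inf_le_left.trans hY).trans n₁) ?_)
      rw [commutator_comm, ← hk.gim_le_cent_iff ((inf_le_left.trans hY).trans n₁) m₂, gim_inf_gpre inf_le_left]
      exact inf_le_right
    have h4 := le_norm_inf (le_normalizer (H := H)) (le_norm_cmod n₂ n₁)
    exact (hI.pClo inf_le_left h4 fun e => hK (commutator_le_of_le_cmod (e.trans inf_le_right))).le_core_of_normal
      inf_le_left h4 h3 (elem_isP hY').to_inf_left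
  have e2 : gim ψ X ≤ gim ψ U₂ ⊓ 𝒞(gim ψ Y) := le_inf (gim_mono hX)
    ((hk.gim_le_cent_iff (hX.trans m₂) (hY.trans n₁)).2 hXY)
  have c1 := hk.card_gim (hY.trans n₁)
  have c2 := hk.card_gim (hX.trans m₂)
  have c3 := hk.card_gim m₂
  have c4 := hk.card_gim ((inf_le_left : Y ⊓ pCoreOf 2 H ≤ Y).trans (hY.trans n₁))
  rw [inf_eq_right.2 h₁] at c2
  rw [inf_eq_right.2 (h₁.trans hX)] at c3
  rw [inf_assoc, inf_eq_right.2 hO₁] at c4
  rw [offM_def] at h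
  rw [← c1, ← c2, ← c3, ← c4]
  exact (mul_mul_mul_comm ..).trans_le ((Nat.mul_le_mul_left _ (((Nat.mul_le_mul_left _ (card_le_of_le e2)).trans h).trans
    (Nat.mul_le_mul_right _ (card_le_of_le e1)))).trans_eq (mul_mul_mul_comm ..))

/-- there are no over-offenders on sections with a noncentral chief factor -/
theorem no_over_sec {U₁ : Subgroup G} (n₁ : H ≤ 𝒩(U₁)) (U₂ : Subgroup G) : ∀ {X : Subgroup G},
    IsElementaryAbelian 2 U₂ → U₂ ≤ pCoreOf 2 H → H ≤ 𝒩(U₂) → ¬ ⁅U₂, pResidualOf 2 H⁆ ≤ U₁ → U₁ ≤ X → X ≤ U₂ →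
    ⁅X, Y⁆ ≤ U₁ → Nat.card Y * Nat.card X ≤ Nat.card (Y ⊓ pCoreOf 2 H : Subgroup G) * Nat.card U₂ := by
  induction U₂ using WellFoundedLT.induction with
  | ind U₂ ih =>
  intro X h₂ hO n₂ hK h₁ hX hXY
  have hab := elem_le_cent h₂
  have hle : ⁅U₂, pCoreOf 2 H⁆ ⊔ U₁ ≤ U₂ := sup_le (commutator_le_of_le_norm ((core_le H).trans n₂)) (h₁.trans hX)
  have n₃ : H ≤ 𝒩(⁅U₂, pCoreOf 2 H⁆ ⊔ U₁) := le_norm_sup (le_norm_commutator n₂ (self_le_norm_core H)) n₁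
  generalize hU₃ : ⁅U₂, pCoreOf 2 H⁆ ⊔ U₁ = U₃ at hle n₃
  have h13 : U₁ ≤ U₃ := hU₃ ▸ le_sup_right
  by_cases hK₃ : ⁅U₂, pResidualOf 2 H⁆ ≤ U₃
  · have hlt : U₃ < U₂ := lt_of_le_of_ne hle fun e => hK ((commutator_le_of_le_norm ((res_le H).trans n₂)).trans
      (le_of_le_commutator_sup hab (h₁.trans hX) ((core_le H).trans n₂) ((core_le H).trans n₁)
        (exists_iter_eq_bot (elem_isP h₂) (core_isP H) ((core_le H).trans n₂)) (hU₃.trans e).ge))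
    have h3 := ih U₃ hlt (X := X ⊓ U₃) (elem_of_le h₂ hle) (hle.trans hO) n₃ (fun e => hK (by
      rw [← commutator_res_res (elem_isP h₂) ((res_le H).trans n₂)]
      exact (commutator_mono hK₃ le_rfl).trans e)) (le_inf h₁ h13) inf_le_right
      ((commutator_mono inf_le_left le_rfl).trans hXY)
    have h4 := (card_mul_card_le_inf_sup X U₃).trans (Nat.mul_le_mul_left _ (card_le_of_le (sup_le hX hle)))
    refine Nat.le_of_mul_le_mul_right ?_ (Nat.card_pos (α := U₃))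
    calc _ = Nat.card Y * (Nat.card X * Nat.card U₃) := by ring
      _ ≤ Nat.card Y * (Nat.card (X ⊓ U₃ : Subgroup G) * Nat.card U₂) := Nat.mul_le_mul_left _ h4
      _ = Nat.card Y * Nat.card (X ⊓ U₃ : Subgroup G) * Nat.card U₂ := by ring
      _ ≤ _ := (Nat.mul_le_mul_right _ h3).trans (le_of_eq (by ring))
  · have m := (hO.trans (core_le H)).trans n₃
    exact (Nat.mul_le_mul_left _ (card_le_of_le le_sup_left)).trans (no_over_sec₀ hU hT hn hY hY' h₂ hO n₃ n₂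
      (hU₃ ▸ le_sup_left) hK₃ le_sup_right (sup_le hX hle) (commutator_sup_le' (hX.trans m) le_normalizer
        (hXY.trans h13) (commutator_le_of_le_norm (hY.trans n₃))))

/-- two noncentral chief factors -/
theorem two_factors {U X : Subgroup G} (hU' : IsElementaryAbelian 2 U) (hO : U ≤ pCoreOf 2 H) (n₂ : H ≤ 𝒩(U))
    (hX : X ≤ U) (n₁ : H ≤ 𝒩(X)) (h₁ : ¬ ⁅U, pResidualOf 2 H⁆ ≤ X) (h₂ : ¬ X ≤ 𝒞(pResidualOf 2 H)) :
    Nat.card Y ^ 2 * Nat.card (U ⊓ 𝒞(Y) : Subgroup G) ≤ Nat.card (Y ⊓ pCoreOf 2 H : Subgroup G) ^ 2 * Nat.card U := by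
  have hab := elem_le_cent hU'
  have a := no_over_sec hU hT hn hY hY' n₁ U hU' hO n₂ h₁ (le_sup_right (a := U ⊓ 𝒞(Y))) (sup_le inf_le_left hX)
    (commutator_sup_le' (le_norm_of_ab hab inf_le_left hX) le_normalizer (comm_cent_le _ _ _)
      (commutator_le_of_le_norm (hY.trans n₁)))
  have b := no_over_sec hU hT hn hY hY' (U₁ := ⊥) (le_normalizer_of_normal) X (X := (U ⊓ 𝒞(Y)) ⊓ X)
    (elem_of_le hU' hX) (hX.trans hO) n₁
    (fun e => h₂ (le_centralizer_iff.1 (commutator_eq_bot_iff'.1 (le_bot_iff.1 e)))) bot_le inf_le_right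
    ((commutator_mono inf_le_left le_rfl).trans (comm_cent_le _ _ _))
  have c := card_sup_mul_card_inf (le_norm_of_ab hab (inf_le_left : U ⊓ 𝒞(Y) ≤ U) hX)
  refine Nat.le_of_mul_le_mul_right ?_ (Nat.card_pos (α := X))
  calc _ = Nat.card Y * Nat.card Y * (Nat.card (U ⊓ 𝒞(Y) : Subgroup G) * Nat.card X) := by ring
    _ = _ := by rw [← c, mul_mul_mul_comm]
    _ ≤ _ := (Nat.mul_le_mul a b).trans (le_of_eq (by ring))

end sec

end CL.QT
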