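/-
The qrc-lemma when `V` is not contained in `O₂(H)`: a cubic `2F`-offender.
-/
import Cfsg.Agent.QT.Qrc1

set_option autoImplicit false
set_option linter.unusedSectionVars false

open Cfsg Subgroup
open scoped commutatorElement

namespace CL.QT

open CL.Even CL.Loc CL.Grp

variable {G : Type*} [Group G] [Finite G]

theorem card_comm_le {U V D D₀ N : Subgroup G} {a : G} (hU : U ≤ 𝒞(U)) (ha : a ∈ 𝒩(U)) (hV : V ≤ U)
    (hD : ∀ v ∈ V, ⁅v, a⁆ ∈ D) (hN : ∀ v ∈ V, ⁅v, a⁆ ∈ D₀ → v ∈ N) :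
    Nat.card V * Nat.card (D₀ ⊓ D : Subgroup G) ≤ Nat.card (N ⊓ V : Subgroup G) * Nat.card D := by
  have : IsMulCommutative U := isMulCommutative_iff_le_centralizer.2 hU
  set f := (commHom U a ha).comp (inclusion hV)
  have h1 : (D₀.comap f).index ≤ D₀.relIndex D := by
    rw [index_comap]
    exact relIndex_le_of_le_right (by rintro _ ⟨v, rfl⟩; exact hD v v.2) index_ne_zero_of_finite
  have h2 : Nat.card (D₀.comap f) ≤ Nat.card (N ⊓ V : Subgroup G) := by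
    rw [← card_subgroupOf_eq]
    exact card_le_of_le fun v hv => hN v v.2 hv
  rw [← card_inf_mul_relIndex D₀ D, ← (D₀.comap f).card_mul_index]
  exact (Nat.mul_le_mul_right _ (Nat.mul_le_mul h2 h1)).trans_eq (by ring)

theorem comm_zp {N : Subgroup G} {x y : G} (hx : x ∈ 𝒩(N)) (hy : y ∈ 𝒩(N)) (h : ⁅x, y⁆ ∈ N) :
    ⁅zpowers x, zpowers y⁆ ≤ N := by
  have hk := isKer_qmk N
  rw [← hk.gim_le_cent_iff (zpowers_le.2 hx) (zpowers_le.2 hy), gim_zpowers hx, gim_zpowers hy, zpowers_le,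
    mem_cent_zp, ← commutatorElement_eq_one_iff_mul_comm, ← map_commutatorElement]
  exact (hk.eq_one _).2 h

/-- `|V : C_V(B)| ≤ |B : C_B(V)|²` -/
def Off2 (V B : Subgroup G) : Prop :=
  Nat.card V * Nat.card (B ⊓ 𝒞(V) : Subgroup G) ^ 2 ≤ Nat.card (V ⊓ 𝒞(B) : Subgroup G) * Nat.card B ^ 2

theorem off2_cj {V B : Subgroup G} (g : G) : Off2 (cj g V) (cj g B) ↔ Off2 V B := by
  unfold Off2
  rw [← cj_cent, ← cj_cent, ← cj_inf, ← cj_inf, card_cj, card_cj, card_cj, card_cj]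

theorem Off2.relIndex {V B : Subgroup G} (h : Off2 V B) : (V ⊓ 𝒞(B)).relIndex V ≤ (𝒞(V).relIndex B) ^ 2 := by
  unfold Off2 at h
  rw [← card_mul_relIndex (inf_le_left : V ⊓ 𝒞(B) ≤ V), ← card_inf_mul_relIndex 𝒞(V) B, inf_comm 𝒞(V), mul_assoc,
    mul_pow, mul_comm _ (_ ^ 2)] at h
  exact Nat.le_of_mul_le_mul_left (Nat.le_of_mul_le_mul_left h Nat.card_pos) (pow_pos Nat.card_pos 2)

/-- the local configuration of the qrc-lemma -/
structure Cfg (H T M R V W : Subgroup G) : Prop where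
  chp : IsCharP 2 H
  syl : IsSylowIn 2 T H
  umax : UMax (R ⊔ pCoreOf 2 H) M H
  TM : T ≤ M
  nR : ¬ R ≤ pCoreOf 2 H
  ea : IsElementaryAbelian 2 V
  VT : V ≤ T
  TV : T ≤ 𝒩(V)
  cent : T ⊓ 𝒞(V) = R
  VW : V ≤ W
  ab : W ≤ 𝒞(W)
  MW : M ≤ 𝒩(W)

/-- a minimal normal subgroup not centralized by `O²(H)` -/
structure MinE (H E : Subgroup G) : Prop where
  le : E ≤ pCoreOf 2 H
  norm : H ≤ 𝒩(E)
  nc : ¬ E ≤ 𝒞(pResidualOf 2 H)
  min : ∀ F < E, H ≤ 𝒩(F) → F ≤ 𝒞(pResidualOf 2 H)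

variable {H T M R V W T' M' R' V' W' E : Subgroup G}

theorem MinE.norm₀ (k : MinE H E) : H ≤ 𝒩(E ⊓ 𝒞(pResidualOf 2 H)) :=
  le_norm_inf k.norm (le_norm_cent (self_le_norm_res H))

theorem MinE.isP (k : MinE H E) : IsPGroup 2 E := (core_isP H).to_le k.le

theorem MinE.comm (k : MinE H E) : ⁅E, pCoreOf 2 H⁆ ≤ E ⊓ 𝒞(pResidualOf 2 H) := by
  have h1 := commutator_le_of_le_norm ((core_le (p := 2) H).trans k.norm)
  refine le_inf h1 (k.min _ (lt_of_le_of_ne h1 fun e => k.nc ?_) (le_norm_commutator k.norm (self_le_norm_core H)))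
  exact (eq_bot_of_le_commutator k.isP (core_isP H) ((core_le H).trans k.norm) e.ge).le.trans bot_le

namespace Cfg

variable (h : Cfg H T M R V W)
include h

theorem RT : R ≤ T := h.cent ▸ inf_le_left

theorem RV : R ≤ 𝒞(V) := h.cent ▸ inf_le_right

theorem OT : pCoreOf 2 H ≤ T := core_le_syl h.syl

theorem OV : pCoreOf 2 H ≤ 𝒩(V) := h.OT.trans h.TV

theorem VH : V ≤ H := h.VT.trans h.syl.le

theorem umaxT : UMax T M H := h.umax.of_le (sup_le h.RT h.OT) h.TM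

theorem nn : ¬ H ≤ 𝒩(T) := fun e => h.nR (h.RT.trans (CL.Even.le_core h.syl.le h.syl.isPGroup e))

theorem pIrr : PIrr 2 H := h.umaxT.pIrr h.syl h.nn

theorem conj {g : G} (hg : g ∈ H) : Cfg H (cj g T) (cj g M) (cj g R) (cj g V) (cj g W) where
  chp := h.chp
  syl := syl_cj_of_mem_norm h.syl (le_normalizer hg)
  umax := by
    have := h.umax.cj_mem hg
    rwa [cj_sup, cj_eq (self_le_norm_core H hg)] at this
  TM := cj_mono g h.TM
  nR := fun e => h.nR (by rwa [← cj_eq (self_le_norm_core H hg), cj_le_cj] at e)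
  ea := elem_map _ h.ea
  VT := cj_mono g h.VT
  TV := by rw [← cj_norm]; exact cj_mono g h.TV
  cent := by rw [← cj_cent, ← cj_inf, h.cent]
  VW := cj_mono g h.VW
  ab := by rw [← cj_cent]; exact cj_mono g h.ab
  MW := by rw [← cj_norm]; exact cj_mono g h.MW

theorem exists_minE : ∃ E, MinE H E := by
  obtain ⟨E, ⟨h1, h2, h3⟩, hmin⟩ := (wellFounded_lt (α := Subgroup G)).has_min
    {E | E ≤ pCoreOf 2 H ∧ H ≤ 𝒩(E) ∧ ¬ E ≤ 𝒞(pResidualOf 2 H)} ⟨_, le_rfl, self_le_norm_core H, fun e =>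
      h.umaxT.not_res_le h.syl ((h.chp.le_core (res_le H) (le_centralizer_iff.1 e)).trans (h.OT.trans h.TM))⟩
  refine ⟨E, h1, h2, h3, fun F hF hn => ?_⟩
  by_contra e
  exact hmin F ⟨hF.le.trans h1, hn, e⟩ hF

theorem le_of {S Y : Subgroup G} (hR : R ≤ S) (hO : pCoreOf 2 H ≤ S) (hY : Y ≤ H) (hYM : ¬ Y ≤ M) (hS : Y ≤ S) :
    H ≤ S := (h.umax.eq_of_not_le (X := H ⊓ S) (le_inf h.umax.le_self (sup_le hR hO)) inf_le_left
  fun e => hYM ((le_inf hY hS).trans e)).ge.trans inf_le_right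

variable (k : MinE H E)
include k

theorem fix {X Y : Subgroup G} (hX : X ≤ E) (hR : X ≤ 𝒞(R)) (hY : Y ≤ H) (hYM : ¬ Y ≤ M)
    (hc : ⁅X, Y⁆ ≤ E ⊓ 𝒞(pResidualOf 2 H)) : X ≤ E ⊓ 𝒞(pResidualOf 2 H) := by
  have h1 := h.le_of (S := cmod X (E ⊓ 𝒞(pResidualOf 2 H))) (le_cmod ((h.RT.trans h.syl.le).trans k.norm₀)
    ((commutator_eq_bot_iff'.2 (le_centralizer_iff.1 hR)).le.trans bot_le))
    (le_cmod ((core_le H).trans k.norm₀) ((commutator_mono hX le_rfl).trans k.comm)) hY hYM (le_cmod (hY.trans k.norm₀) hc)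
  exact le_inf hX (le_centralizer_iff.1 (res_le_cent k.isP.to_inf_left
    (commutator_le_of_le_cmod ((res_le H).trans h1)) (le_centralizer_iff.1 inf_le_right)))

theorem le_core {X : Subgroup G} (hX : X ≤ H) (hp : IsPGroup 2 X) (hc : ⁅E, X⁆ ≤ E ⊓ 𝒞(pResidualOf 2 H)) :
    X ≤ pCoreOf 2 H := by
  have h1 := le_norm_inf (le_normalizer (H := H)) (le_norm_cmod k.norm k.norm₀)
  refine (h.pIrr.pClo inf_le_left h1 fun e => k.nc (le_centralizer_iff.1 (res_le_cent k.isP.to_inf_left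
    (commutator_le_of_le_cmod (e.trans inf_le_right)) (le_centralizer_iff.1 inf_le_right)))).le_core_of_normal
    inf_le_left h1 (le_inf hX (le_cmod (hX.trans k.norm₀) hc)) hp

theorem comm_le : ⁅E, V⁆ ≤ V ⊓ E :=
  le_inf (commutator_le_of_le_norm' (k.le.trans h.OV)) (commutator_le_of_le_norm (h.VH.trans k.norm))

theorem not_le₀ (hV : ¬ V ≤ pCoreOf 2 H) : ¬ V ⊓ E ≤ E ⊓ 𝒞(pResidualOf 2 H) := fun e =>
  hV (h.le_core k h.VH (elem_isP h.ea) ((h.comm_le k).trans e))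

variable (h' : Cfg H T' M' R' V' W')
include h'

theorem inf_le (hV : ¬ V' ≤ pCoreOf 2 H) (hM : ¬ V' ≤ M) : V ⊓ M' ≤ pCoreOf 2 H := by
  have hN : V ⊓ M' ≤ H := inf_le_left.trans h.VH
  have h1 : ⁅V' ⊓ E, V ⊓ M'⁆ ≤ E ⊓ 𝒞(pResidualOf 2 H) := by
    have h2 := (commutator_mono (inf_le_right : V' ⊓ E ≤ E) (inf_le_left : V ⊓ M' ≤ V)).trans (h.comm_le k)
    refine h.fix k (h2.trans inf_le_right) ((h2.trans inf_le_left).trans (le_centralizer_iff.1 h.RV)) h'.VH hM ?_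
    refine (commutator_eq_bot_iff'.2 (h'.VW.trans (h'.ab.trans (cent_mono ?_)))).le.trans bot_le
    exact (commutator_mono (inf_le_left.trans h'.VW) le_rfl).trans (commutator_le_of_le_norm (inf_le_right.trans h'.MW))
  set F := E ⊓ cmod (V ⊓ M') (E ⊓ 𝒞(pResidualOf 2 H))
  have m := (k.le.trans (core_le H)).trans k.norm₀
  have h2 : V' ⊓ E ≤ F := le_inf inf_le_right (le_cmod (inf_le_right.trans m) (by rwa [commutator_comm]))
  have h3 : E ⊓ 𝒞(pResidualOf 2 H) ≤ F := le_inf inf_le_left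
    (le_cmod le_normalizer (commutator_le_of_le_norm' (hN.trans k.norm₀)))
  have hR := h.RT.trans h.syl.le
  have h4 : H ≤ 𝒩(F) := h.le_of (le_norm_inf (hR.trans k.norm) (le_norm_cmod
    ((h.RV.trans (cent_mono inf_le_left)).trans (cent_le_norm _)) (hR.trans k.norm₀)))
    (le_norm_of_commutator_le (((commutator_mono inf_le_left le_rfl).trans k.comm).trans h3)) h'.VH hM
    (le_norm_of_commutator_le (((commutator_mono inf_le_left le_rfl).trans (h'.comm_le k)).trans h2))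
  have h5 : F = E := by
    by_contra e
    exact h'.not_le₀ k hV (le_inf inf_le_right (h2.trans (k.min F (lt_of_le_of_ne inf_le_left e) h4)))
  refine h.le_core k hN (elem_isP h.ea).to_inf_left ?_
  rw [commutator_comm]
  exact commutator_le_of_le_cmod (h5.ge.trans inf_le_right)

theorem not_le_M (hV : ¬ V ≤ pCoreOf 2 H) (hV' : ¬ V' ≤ pCoreOf 2 H) (hM : ¬ V' ≤ M) : ¬ V ≤ M' := fun e =>
  hV ((le_inf le_rfl e).trans (h.inf_le k h' hV' hM))

theorem count (hV : ¬ V ≤ pCoreOf 2 H) (hV' : ¬ V' ≤ pCoreOf 2 H) (hM : ¬ V' ≤ M) :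
    Nat.card V' * Nat.card (V' ⊓ pCoreOf 2 H ⊓ 𝒞(V) : Subgroup G) ≤ Nat.card (V' ⊓ pCoreOf 2 H : Subgroup G) ^ 2 := by
  have hM' := h.not_le_M k h' hV hV' hM
  obtain ⟨e, he, he'⟩ := SetLike.not_le_iff_exists.1 (h.not_le₀ k hV)
  have h1 := card_comm_le (D := V' ⊓ E) (D₀ := E ⊓ 𝒞(pResidualOf 2 H)) (N := pCoreOf 2 H) (elem_le_cent h'.ea)
    (h'.OV (k.le he.2)) le_rfl (fun v hv => by
      rw [← commutatorElement_inv]
      exact inv_mem (h'.comm_le k (commutator_mem_commutator he.2 hv))) fun v hv hc => by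
      refine h'.inf_le k h hV hM' ⟨hv, ?_⟩
      by_contra hvM
      refine he' (h.fix k (zpowers_le.2 he.2) ((zpowers_le.2 he.1).trans (le_centralizer_iff.1 h.RV))
        (zpowers_le.2 (h'.VH hv)) (by rwa [zpowers_le]) ?_ (mem_zpowers e))
      rw [commutator_comm]
      exact comm_zp (k.norm₀ (h'.VH hv)) (((k.le.trans (core_le H)).trans k.norm₀) he.2) hc
  have h2 := (card_mul_card_le_inf_sup (V' ⊓ E) (V' ⊓ pCoreOf 2 H ⊓ 𝒞(V))).trans (Nat.mul_le_mul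
    (card_le_of_le (K := E ⊓ 𝒞(pResidualOf 2 H) ⊓ (V' ⊓ E)) (le_inf (h'.fix k (inf_le_left.trans inf_le_right)
      ((inf_le_left.trans inf_le_left).trans (le_centralizer_iff.1 h'.RV)) h.VH hM'
      ((commutator_mono inf_le_right le_rfl).trans (comm_cent_le _ _ _))) inf_le_left))
    (card_le_of_le (sup_le (inf_le_inf_left _ k.le) inf_le_left)))
  rw [inf_comm (pCoreOf 2 H)] at h1
  refine Nat.le_of_mul_le_mul_right ?_ (Nat.card_pos (α := (E ⊓ 𝒞(pResidualOf 2 H) ⊓ (V' ⊓ E) : Subgroup G)))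
  calc _ = _ := mul_right_comm ..
    _ ≤ _ := Nat.mul_le_mul_right _ h1
    _ = _ := mul_assoc ..
    _ ≤ _ := (Nat.mul_le_mul_left _ h2).trans_eq (by ring)

omit k in
theorem cubic : ⁅⁅⁅V, V' ⊓ pCoreOf 2 H⁆, V' ⊓ pCoreOf 2 H⁆, V' ⊓ pCoreOf 2 H⁆ = ⊥ := by
  refine commutator_eq_bot_iff'.2 (inf_le_left.trans ((elem_le_cent h'.ea).trans (cent_mono ?_)))
  exact (commutator_mono ((commutator_mono le_rfl inf_le_right).trans
    (commutator_le_of_le_norm' (h.VH.trans (self_le_norm_core H)))) inf_le_left).trans (commutator_le_of_le_norm' h'.OV)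

theorem off2 (hV : ¬ V ≤ pCoreOf 2 H) (hV' : ¬ V' ≤ pCoreOf 2 H) (hM : ¬ V' ≤ M) (hc : Nat.card V = Nat.card V')
    (hZ : Nat.card (V' ⊓ pCoreOf 2 H ⊓ 𝒞(V) : Subgroup G) ≤ Nat.card (V ⊓ pCoreOf 2 H ⊓ 𝒞(V') : Subgroup G)) :
    ¬ V' ⊓ pCoreOf 2 H ≤ 𝒞(V) ∧ Off2 V (V' ⊓ pCoreOf 2 H) := by
  refine ⟨fun e => h'.not_le₀ k hV' (h'.fix k inf_le_right (inf_le_left.trans (le_centralizer_iff.1 h'.RV)) h.VH
    (h.not_le_M k h' hV hV' hM) ((commutator_eq_bot_iff'.2 (le_centralizer_iff.1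
      ((inf_le_inf_left _ k.le).trans e))).le.trans bot_le)), ?_⟩
  unfold Off2
  rw [hc, pow_two, ← mul_assoc, mul_comm]
  exact Nat.mul_le_mul (hZ.trans (card_le_of_le (inf_le_inf inf_le_left (cent_mono inf_le_left))))
    (h.count k h' hV hV' hM)

omit k h' in
/-- a cubic offender in `O₂(H)` -/
theorem exists_cubic (hV : ¬ V ≤ pCoreOf 2 H) : ∃ B ≤ pCoreOf 2 H, IsElementaryAbelian 2 B ∧ ¬ B ≤ 𝒞(V) ∧
    ⁅⁅⁅V, B⁆, B⁆, B⁆ = ⊥ ∧ Off2 V B := by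
  obtain ⟨E, k⟩ := h.exists_minE
  have nc : ∀ {g}, g ∈ H → ¬ cj g V ≤ pCoreOf 2 H := fun hg e =>
    hV (by rwa [← cj_eq (self_le_norm_core H hg), cj_le_cj] at e)
  obtain ⟨g, hg, hM⟩ : ∃ g ∈ H, ¬ cj g V ≤ M := by
    by_contra! e
    exact hV ((h.umaxT.pClo_of_le h.syl (le_norm_ncl H V) (ncl_le_iff.2 e)).le_core_of_normal (ncl_le_self h.VH)
      (le_norm_ncl H V) (le_ncl H V) (elem_isP h.ea))
  have main : ∀ {g}, g ∈ H → ¬ cj g V ≤ M → Nat.card (cj g V ⊓ pCoreOf 2 H ⊓ 𝒞(V) : Subgroup G) ≤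
      Nat.card (V ⊓ pCoreOf 2 H ⊓ 𝒞(cj g V) : Subgroup G) → ∃ B ≤ pCoreOf 2 H, IsElementaryAbelian 2 B ∧ ¬ B ≤ 𝒞(V) ∧
      ⁅⁅⁅V, B⁆, B⁆, B⁆ = ⊥ ∧ Off2 V B := fun hg hM hZ =>
    have := h.off2 k (h.conj hg) hV (nc hg) hM (card_cj _ V).symm hZ
    ⟨_, inf_le_right, elem_of_le (h.conj hg).ea inf_le_left, this.1, h.cubic (h.conj hg), this.2⟩
  rcases le_total (Nat.card (cj g V ⊓ pCoreOf 2 H ⊓ 𝒞(V) : Subgroup G))
    (Nat.card (V ⊓ pCoreOf 2 H ⊓ 𝒞(cj g V) : Subgroup G)) with e | e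
  · exact main hg hM e
  · refine main (inv_mem hg) (fun e' => h.not_le_M k (h.conj hg) hV (nc hg) hM (le_cj_iff.2 e')) ?_
    rw [← card_cj g, ← card_cj g (V ⊓ _ ⊓ _)]
    simpa only [cj_inf, cj_cent, cj_cj_inv, cj_eq (self_le_norm_core H hg)] using e

end Cfg

end CL.QT
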