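/-
The qrc-lemma when `V` is contained in `O₂(H)`.
-/
import Cfsg.Agent.QT.Qrc2

set_option autoImplicit false
set_option linter.unusedSectionVars false

open Cfsg Subgroup
open scoped commutatorElement

namespace CL.QT

open CL.Even CL.Loc CL.Grp

variable {G : Type*} [Group G] [Finite G]

/-- a pairing into a group of order two -/
theorem card_le_of_pairing {V P Z Z₁ : Subgroup G} (hV : V ≤ 𝒞(V)) (hP : P ≤ 𝒩(V)) (hZ : ⁅V, P⁆ ≤ Z)
    (h2 : Nat.card Z = 2 * Nat.card (Z₁ ⊓ Z : Subgroup G)) (n₁ : V ≤ 𝒩(Z₁)) (n₂ : P ≤ 𝒩(Z₁)) (Y : Subgroup G) :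
    P ⊓ 𝒞(V) ≤ Y → Y ≤ P →
    Nat.card V * Nat.card (P ⊓ 𝒞(V) : Subgroup G) ≤ Nat.card (cmod Y Z₁ ⊓ V : Subgroup G) * Nat.card Y := by
  induction Y using WellFoundedLT.induction with
  | ind Y ih =>
  intro h1 hY
  by_cases hc : Y ≤ 𝒞(V)
  · exact Nat.mul_le_mul (card_le_of_le (le_inf (le_cmod n₁ ((commutator_eq_bot_iff'.2
      (le_centralizer_iff.1 hc)).le.trans bot_le)) le_rfl)) (card_le_of_le h1)
  obtain ⟨X, ⟨h3, h4⟩, hmax⟩ := (wellFounded_gt (α := Subgroup G)).has_min {X | P ⊓ 𝒞(V) ≤ X ∧ X < Y}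
    ⟨_, le_rfl, lt_of_le_of_ne h1 fun e => hc (e.ge.trans inf_le_right)⟩
  obtain ⟨y, hy, hy'⟩ := SetLike.exists_of_lt h4
  have e : X ⊔ zpowers y = Y := by
    by_contra e
    exact hmax _ ⟨h3.trans le_sup_left, lt_of_le_of_ne (sup_le h4.le (zpowers_le.2 hy)) e⟩
      (left_lt_sup.2 (by rwa [zpowers_le]))
  have h5 := card_comm_le (V := cmod X Z₁ ⊓ V) (D := Z) (D₀ := Z₁) (N := cmod Y Z₁) hV (hP (hY hy)) inf_le_right
    (fun v hv => hZ (commutator_mem_commutator hv.2 (hY hy))) fun v hv hc => zpowers_le.1 (le_cmod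
      (zpowers_le.2 (n₁ hv.2)) (by
        rw [← e]
        refine commutator_sup_le' ((h4.le.trans hY).trans n₂) (zpowers_le.2 (n₂ (hY hy)))
          (commutator_le_of_le_cmod (zpowers_le.2 hv.1)) ?_
        rw [commutator_comm]
        exact comm_zp (n₁ hv.2) (n₂ (hY hy)) hc))
  rw [h2, ← mul_assoc] at h5
  have h6 := (Nat.le_of_mul_le_mul_right h5 Nat.card_pos).trans
    (Nat.mul_le_mul_right 2 (card_le_of_le (inf_le_inf_left _ inf_le_right)))
  obtain ⟨m, hm⟩ := card_dvd_of_le h4.le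
  have h7 : 2 ≤ m := by
    by_contra h7
    exact h4.ne (eq_of_le_of_card_le h4.le (hm.trans_le ((Nat.mul_le_mul_left _ (by omega)).trans_eq (mul_one _))))
  refine (ih X h4 h3 (h4.le.trans hY)).trans ((Nat.mul_le_mul_right _ h6).trans ?_)
  rw [hm, mul_assoc, mul_comm 2]
  exact Nat.mul_le_mul_left _ (Nat.mul_le_mul_left _ h7)

/-- no quadratic `2F`-offenders in `X` -/
def NoQ (X V : Subgroup G) : Prop := ∀ B ≤ X, ⁅V, B⁆ ≤ 𝒞(B) → ¬ B ≤ 𝒞(V) → ¬ Off2 V B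

theorem NoQ.conj {X V : Subgroup G} (h : NoQ X V) {g : G} (hg : g ∈ 𝒩(X)) : NoQ X (cj g V) := fun B hB h1 h2 h3 =>
  h (cj g⁻¹ B) (cj_le_of_le hB (inv_mem hg)) (by
    have := cj_mono g⁻¹ h1
    rwa [cj_commutator, cj_inv_cj, cj_cent] at this)
    (fun e => h2 (by rwa [← cj_cent, le_cj_iff])) (by rwa [← off2_cj g, cj_cj_inv])

theorem NoQ.le_cent {X V B : Subgroup G} (h : NoQ X V) (hB : B ≤ X) (hq : ⁅V, B⁆ ≤ 𝒞(B))
    (ho : Nat.card V * Nat.card (B ⊓ 𝒞(V) : Subgroup G) ≤ Nat.card (V ⊓ 𝒞(B) : Subgroup G) * Nat.card B) :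
    B ≤ 𝒞(V) := by
  by_contra e
  refine h B hB hq e ?_
  rw [Off2, pow_two, pow_two, ← mul_assoc, ← mul_assoc]
  exact Nat.mul_le_mul ho (card_le_of_le inf_le_left)

/-- a quadratic member of `𝒜(T)` -/
theorem exists_mea_quad {T U : Subgroup G} (hU : IsElementaryAbelian 2 U) (hUT : U ≤ T) (hn : T ≤ 𝒩(U))
    (hJ : ¬ 𝐉[2] T ≤ 𝒞(U)) : ∃ A ∈ meaIn 2 T, ¬ A ≤ 𝒞(U) ∧ ⁅U, A⁆ ≤ 𝒞(A) ∧
      Nat.card U * Nat.card (A ⊓ 𝒞(U) : Subgroup G) ≤ Nat.card (U ⊓ 𝒞(A) : Subgroup G) * Nat.card A := by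
  obtain ⟨A, hA, h1⟩ : ∃ A ∈ meaIn 2 T, ¬ A ≤ 𝒞(U) := by
    by_contra! h1
    exact hJ (thompsonSubgroupOf_le_iff.2 h1)
  obtain ⟨h2, h3, h4⟩ := thompson_replacement hUT hU hA (hA.1.trans hn)
  refine ⟨_, h2, fun e => h4 (fun e' => h1 (commutator_eq_bot_iff'.1 e')) (commutator_eq_bot_iff'.2 e),
    le_centralizer_iff.1 (commutator_eq_bot_iff'.1 h3), ?_⟩
  have := bestOffender_offM_le (bestOffender_of_mem_meaIn hUT hU h2) (inf_le_left (b := 𝒞(U)))
  rw [offM_def, offM_def, inf_eq_left.2 (le_centralizer_iff.1 inf_le_right)] at this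
  exact (mul_comm _ _).trans_le (this.trans_eq (mul_comm _ _))

variable {H T M R V W : Subgroup G}

namespace Cfg

variable (h : Cfg H T M R V W) (hV : V ≤ pCoreOf 2 H) (hq : NoQ (pCoreOf 2 H) V)
include h hV hq

theorem ncl_ea : IsElementaryAbelian 2 (ncl H V) := by
  refine elem_iSup (fun g => (h.conj g.2).ea) fun g g' => ?_
  have key : ∀ {a b : G}, a ∈ H → b ∈ H → Nat.card (cj b V ⊓ 𝒞(cj a V) : Subgroup G) ≤
      Nat.card (cj a V ⊓ 𝒞(cj b V) : Subgroup G) → cj b V ≤ 𝒞(cj a V) := fun ha hb e =>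
    (hq.conj (self_le_norm_core H ha)).le_cent (cj_le_of_le hV (self_le_norm_core H hb))
      ((commutator_le_of_le_norm' ((cj_le_of_le hV (self_le_norm_core H ha)).trans (h.conj hb).OV)).trans
        (elem_le_cent (h.conj hb).ea)) (by rw [card_cj, card_cj, mul_comm]; exact Nat.mul_le_mul_right _ e)
  exact (le_total _ _).elim (key g'.2 g.2) fun e => le_centralizer_iff.1 (key g.2 g'.2 e)

theorem ncl_le_core : ncl H V ≤ pCoreOf 2 H := ncl_le hV (self_le_norm_core H)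

theorem filt (B : Subgroup G) : B ≤ pCoreOf 2 H → ⁅ncl H V, B⁆ ≤ 𝒞(B) → ¬ B ≤ 𝒞(ncl H V) → ¬ Off2 (ncl H V) B := by
  induction B using WellFoundedLT.induction with
  | ind B ih =>
  intro hB hc hne ho
  obtain ⟨g, hg, h1⟩ : ∃ g ∈ H, ¬ B ≤ 𝒞(cj g V) := by
    by_contra! h1
    exact hne (le_centralizer_iff.1 (ncl_le_iff.2 fun g hg => le_centralizer_iff.1 (h1 g hg)))
  have hX := cj_le_ncl V hg
  have h2 := not_le.1 (hq.conj (self_le_norm_core H hg) B hB ((commutator_mono hX le_rfl).trans hc) h1)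
  generalize cj g V = X at h1 hX h2
  generalize ncl H V = U at *
  have h3 := (card_mul_card_le_inf_sup X (U ⊓ 𝒞(B))).trans (Nat.mul_le_mul
    (card_le_of_le (inf_le_inf_left _ inf_le_right)) (card_le_of_le (K := U ⊓ 𝒞(B ⊓ 𝒞(X)))
      (sup_le (le_inf hX (le_centralizer_iff.1 inf_le_right)) (inf_le_inf_left _ (cent_mono inf_le_left)))))
  have e : B ⊓ 𝒞(X) ⊓ 𝒞(U) = B ⊓ 𝒞(U) := by rw [inf_assoc, inf_eq_right.2 (cent_mono hX)]
  have h4 : Nat.card (U ⊓ 𝒞(B ⊓ 𝒞(X)) : Subgroup G) * Nat.card (B ⊓ 𝒞(X) : Subgroup G) ^ 2 ≤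
      Nat.card U * Nat.card (B ⊓ 𝒞(U) : Subgroup G) ^ 2 := by
    by_cases h4 : B ⊓ 𝒞(X) ≤ 𝒞(U)
    · rw [← e, inf_eq_left.2 h4]
      exact Nat.mul_le_mul_right _ (card_le_of_le inf_le_left)
    · have := not_le.1 (ih _ (inf_lt_left.2 h1) (inf_le_left.trans hB)
        (((commutator_mono le_rfl inf_le_left).trans hc).trans (cent_mono inf_le_left)) h4)
      rw [e] at this
      exact this.le
  refine lt_irrefl _ (calc
    Nat.card (U ⊓ 𝒞(B) : Subgroup G) * (Nat.card (X ⊓ 𝒞(B) : Subgroup G) * Nat.card B ^ 2)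
      < _ := (Nat.mul_lt_mul_left Nat.card_pos).2 h2
    _ = _ * Nat.card (B ⊓ 𝒞(X) : Subgroup G) ^ 2 := by rw [← mul_assoc, mul_comm _ (Nat.card X)]
    _ ≤ _ := Nat.mul_le_mul_right _ h3
    _ = _ := mul_assoc ..
    _ ≤ _ := Nat.mul_le_mul_left _ (h4.trans ho)
    _ = _ := mul_left_comm ..)

variable (hK : ¬ pResidualOf 2 H ≤ 𝒞(V)) (hJ : ¬ 𝐉[2] T ≤ pCoreOf 2 H)
include hK

theorem not_cent : ¬ pResidualOf 2 H ≤ 𝒞(ncl H V) := fun e => hK (e.trans (cent_mono (le_ncl H V)))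

include hJ

/-- there is one noncentral chief factor -/
theorem one_factor {X : Subgroup G} (hX : X ≤ ncl H V) (hn : H ≤ 𝒩(X)) :
    ⁅ncl H V, pResidualOf 2 H⁆ ≤ X ∨ X ≤ 𝒞(pResidualOf 2 H) := by
  by_contra! e
  have hle : ∀ {A}, A ≤ T → A ⊓ 𝒞(ncl H V) ≤ pCoreOf 2 H := fun hA => h.pIrr.inf_cent_le_core (le_norm_ncl H V)
    (h.not_cent hV hq hK) (hA.trans h.syl.le) (h.syl.isPGroup.to_le hA)
  obtain ⟨A, hA, h1, h2, h3⟩ := exists_mea_quad (h.ncl_ea hV hq) ((h.ncl_le_core hV hq).trans h.OT)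
    (h.syl.le.trans (le_norm_ncl H V)) fun e => hJ ((le_inf le_rfl e).trans (hle (thompsonSubgroupOf_le T)))
  have h4 := two_factors h.umaxT h.syl h.nn (hA.1.trans h.syl.le) hA.2.1 (h.ncl_ea hV hq) (h.ncl_le_core hV hq)
    (le_norm_ncl H V) hX hn e.1 e.2
  have h5 := h.filt hV hq (A ⊓ pCoreOf 2 H) inf_le_right
    (((commutator_mono le_rfl inf_le_left).trans h2).trans (cent_mono inf_le_left))
  have h6 : A ⊓ pCoreOf 2 H ⊓ 𝒞(ncl H V) = A ⊓ 𝒞(ncl H V) := by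
    rw [inf_right_comm, inf_eq_left.2 (hle hA.1)]
  have h7 : Nat.card (A ⊓ 𝒞(ncl H V) : Subgroup G) < Nat.card A :=
    not_le.1 fun e => h1 ((eq_of_le_of_card_le inf_le_left e).ge.trans inf_le_right)
  have h8 : Nat.card (ncl H V ⊓ 𝒞(A) : Subgroup G) ≤ Nat.card (ncl H V ⊓ 𝒞(A ⊓ pCoreOf 2 H) : Subgroup G) :=
    card_le_of_le (inf_le_inf_left _ (cent_mono inf_le_left))
  have h9 : A ⊓ pCoreOf 2 H ≤ 𝒞(ncl H V) →
      Nat.card (A ⊓ pCoreOf 2 H : Subgroup G) ≤ Nat.card (A ⊓ 𝒞(ncl H V) : Subgroup G) :=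
    fun e => card_le_of_le (le_inf inf_le_left e)
  rw [Off2, h6] at h5
  have p1 : 0 < Nat.card (ncl H V ⊓ 𝒞(A) : Subgroup G) := Nat.card_pos
  have p2 : 0 < Nat.card A := Nat.card_pos
  generalize Nat.card (ncl H V ⊓ 𝒞(A ⊓ pCoreOf 2 H) : Subgroup G) = c₀ at *
  generalize Nat.card (A ⊓ 𝒞(ncl H V) : Subgroup G) = d at *
  generalize Nat.card (A ⊓ pCoreOf 2 H : Subgroup G) = a₀ at *
  generalize Nat.card (ncl H V ⊓ 𝒞(A) : Subgroup G) = c at *
  generalize Nat.card (ncl H V) = u at *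
  generalize Nat.card A = a at *
  have k1 : u * d ^ 2 ≤ c * (a * d) := by nlinarith
  by_cases e : A ⊓ pCoreOf 2 H ≤ 𝒞(ncl H V)
  · have k2 : a₀ ^ 2 * u ≤ u * d ^ 2 := by
      rw [mul_comm]; exact Nat.mul_le_mul_left _ (Nat.pow_le_pow_left (h9 e) 2)
    have k3 : c * (a * d) < c * (a * a) := (Nat.mul_lt_mul_left p1).2 ((Nat.mul_lt_mul_left p2).2 h7)
    nlinarith
  · have k2 : c * a₀ ^ 2 < c * (a * d) := ((Nat.mul_le_mul_right _ h8).trans_lt (not_le.1 (h5 e))).trans_le k1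
    have k3 : a * c * (a * d) ≤ a * c * a₀ ^ 2 := calc
      _ = a ^ 2 * c * d := by ring
      _ ≤ a₀ ^ 2 * u * d := Nat.mul_le_mul_right _ h4
      _ = a₀ ^ 2 * (u * d) := mul_assoc ..
      _ ≤ _ := (Nat.mul_le_mul_left _ h3).trans_eq (by ring)
    exact not_le.2 (Nat.lt_of_mul_lt_mul_left k2) (Nat.le_of_mul_le_mul_left k3 (mul_pos p2 p1))

theorem comm_le_cent : ⁅ncl H V, pCoreOf 2 H⁆ ≤ 𝒞(pResidualOf 2 H) := by
  have n := le_norm_ncl H V
  have n' := le_norm_commutator n (self_le_norm_core (p := 2) H)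
  refine (h.one_factor hV hq hK hJ (commutator_le_of_le_norm ((core_le H).trans n)) n').resolve_left fun e => ?_
  have h1 : ncl H V ≤ V := le_of_le_commutator_sup (elem_le_cent (h.ncl_ea hV hq)) (le_ncl H V) ((core_le H).trans n)
    h.OV (exists_iter_eq_bot (elem_isP (h.ncl_ea hV hq)) (core_isP H) ((core_le H).trans n))
    (ncl_le le_sup_right (le_of_syl_of_res h.syl (le_norm_sup (h.syl.le.trans n') h.TV) (le_norm_of_commutator_le
      (((commutator_mono (sup_le (commutator_le_of_le_norm ((core_le H).trans n)) (le_ncl H V)) le_rfl).trans e).trans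
        le_sup_left))))
  exact h.nR ((le_inf le_rfl h.RV).trans (h.pIrr.inf_cent_le_core (le_antisymm h1 (le_ncl H V) ▸ n) hK
    (h.RT.trans h.syl.le) (h.syl.isPGroup.to_le h.RT)))

/-- the dual offender -/
theorem false_of_cent (hZ : pResidualOf 2 H ≤ 𝒞(𝛀[2] (pCoreOf 2 H))) : False := by
  have ea := h.ncl_ea hV hq
  have hO := h.ncl_le_core hV hq
  have n := le_norm_ncl H V
  have h1 := h.comm_le_cent hV hq hK hJ
  have one := @h.one_factor _ _ _ _ _ _ _ _ _ hV hq hK hJ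
  have nc := h.not_cent hV hq hK
  have hVU := le_ncl H V
  have hUP : ∀ {P : Subgroup G}, P ≤ 𝒞(V) → H ≤ 𝒩(P) → P ≤ 𝒞(ncl H V) := fun e e' =>
    le_centralizer_iff.1 (ncl_le (le_centralizer_iff.1 e) (le_norm_cent e'))
  generalize ncl H V = U at *
  set K := pResidualOf 2 H
  set P := ⁅pCoreOf 2 H, K⁆ with hP
  have nK : H ≤ 𝒩(K) := self_le_norm_res H
  have nP : H ≤ 𝒩(P) := le_norm_commutator (self_le_norm_core H) nK
  have PK : P ≤ K := commutator_le_of_le_norm' ((core_le H).trans nK)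
  have PO : P ≤ pCoreOf 2 H := commutator_le_of_le_norm ((res_le H).trans (self_le_norm_core H))
  have h2 : ⁅U, P⁆ ≤ 𝒞(K) := (commutator_mono le_rfl PO).trans h1
  have h3 : ⁅U, P⁆ ≤ U := commutator_le_of_le_norm ((PO.trans (core_le H)).trans n)
  have h4 : ⁅U, P⁆ ≠ ⊥ := fun e => by
    have h5 : ⁅⁅U, K⁆, pCoreOf 2 H⁆ = ⊥ := commutator_commutator_eq_bot_of_rotate
      (by rwa [commutator_comm K, commutator_comm]) (by
        rw [commutator_comm _ U]; exact commutator_eq_bot_iff'.2 (le_centralizer_iff.1 h1))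
    have h6 := commutator_le_of_le_norm ((res_le (p := 2) H).trans n)
    exact nc (res_le_cent (ozc_isP (p := 2) _) (le_ozc (elem_of_le ea h6) (h6.trans hO)
      (le_centralizer_iff.1 (commutator_eq_bot_iff'.1 h5))) hZ)
  have nZ := le_norm_commutator n nP
  have pZ := (elem_isP ea).to_le h3
  obtain ⟨Z, -, h5, h6⟩ := exists_normal_index_eq_ge pZ (H := ⁅⁅U, P⁆, T⁆.subgroupOf ⁅U, P⁆) fun e =>
    h4 (eq_bot_of_le_commutator pZ h.syl.isPGroup (h.syl.le.trans nZ) (subgroupOf_eq_top.1 e))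
  have hT := commutator_le_of_le_norm (h.syl.le.trans nZ)
  rw [← map_le_map_iff_of_injective (subtype_injective _), map_subgroupOf_eq_of_le hT] at h5
  have h7 : Nat.card ↥⁅U, P⁆ = 2 * Nat.card (Z.map (Subgroup.subtype _) ⊓ ⁅U, P⁆ : Subgroup G) := by
    rw [inf_eq_left.2 (map_subtype_le Z), card_map_of_injective (subtype_injective _), ← h6, index_mul_card]
  have h8 := map_subtype_le Z
  have h9 : ¬ ⁅U, P⁆ ≤ Z.map (Subgroup.subtype _) := fun e => by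
    rw [inf_eq_right.2 e] at h7
    have : 0 < Nat.card ↥⁅U, P⁆ := Nat.card_pos
    omega
  generalize Z.map (Subgroup.subtype _) = Z₁ at *
  have n₁ : H ≤ 𝒩(Z₁) := le_of_syl_of_res h.syl (le_norm_of_commutator_le ((commutator_mono h8 le_rfl).trans h5))
    ((le_centralizer_iff.1 (h8.trans h2)).trans (cent_le_norm _))
  have m := (hO.trans (core_le H)).trans n₁
  have h10 : cmod P Z₁ ⊓ U ≤ 𝒞(K) := (one inf_le_right (le_norm_inf (le_norm_cmod nP n₁) n)).resolve_left fun e => by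
    refine h9 ?_
    rw [commutator_comm, hP, ← commutator_res_res (core_isP H) ((res_le H).trans (self_le_norm_core H))]
    refine three_subgroups_of_le_normalizer ((PO.trans (core_le H)).trans n₁) ((res_le H).trans n₁) m ?_ ?_
    · rw [commutator_comm K, commutator_comm]
      exact commutator_le_of_le_cmod (e.trans inf_le_left)
    · exact (commutator_eq_bot_iff'.2 (le_centralizer_iff.1 h2)).le.trans bot_le
  have h11 := (card_le_of_pairing (elem_le_cent h.ea) (PO.trans h.OV) (commutator_mono hVU le_rfl) h7 (hVU.trans m)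
    ((PO.trans (core_le H)).trans n₁) P inf_le_left le_rfl).trans (Nat.mul_le_mul_right _ (card_le_of_le
      (K := V ⊓ 𝒞(P)) (le_inf inf_le_right (((inf_le_inf_left _ hVU).trans h10).trans (cent_mono PK)))))
  exact h4 (commutator_eq_bot_iff'.2 (hUP (hq.le_cent PO
    (((commutator_mono hVU le_rfl).trans h2).trans (cent_mono PK)) h11) nP))

end Cfg

end CL.QT
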