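/-
The qrc-lemma in a group of even characteristic.
-/
import Cfsg.Agent.QT.Qrc3

set_option autoImplicit false
set_option linter.unusedSectionVars false

open Cfsg Subgroup
open scoped commutatorElement

namespace CL.QT

open CL.Even CL.Loc CL.Grp

variable {G : Type*} [Group G] [Finite G]

theorem pair_pt {T M₀ H M S L Q Z : Subgroup G} (hT : IsSylowIn 2 T ⊤) (hE : EvenCh T) (hTM : T ≤ M₀) (hU : UMax T M H)
    (hH : IsCharP 2 H) (hS : S ≤ T) (h₀ : M₀ ≤ 𝒩(S)) (h : Pt S L Q Z) (hL : L ≤ H) (hLM : ¬ L ≤ M) :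
    ∃ D : Subgroup G, D ≠ ⊥ ∧ D ≤ S ∧ M₀ ⊔ H ≤ 𝒩(D) := by
  by_contra hc
  refine h.false_of_even h₀ (hT.of_le hTM le_top) hS (fun D h1 h2 h3 => ?_) (fun t ht => ?_)
    (fun D h1 h2 h3 => hE D h1 (hT.isPGroup.to_le h2) h3) fun D _ _ h3 => core_le_syl (hT.of_le h3 le_top)
  · by_contra e
    exact hLM ((le_inf hL h3).trans (hU.inf_norm_le (hTM.trans h2) fun h4 => hc ⟨D, e, h1, sup_le h2 h4⟩))
  · exact h.le_of_charP (h.conj (h₀ (hTM ht))) hH hL (cj_le_of_mem hL (hU.le_self ht))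
      ((core_le_syl (hT.of_le hU.le_self le_top)).trans (hTM.trans h₀))

theorem quad_of_off2 {X V B : Subgroup G} (hV : IsElementaryAbelian 2 V) (hB : B ≤ X) (hn : B ≤ 𝒩(V))
    (hq : ⁅V, B⁆ ≤ 𝒞(B)) (hne : ¬ B ≤ 𝒞(V)) (ho : Off2 V B) : QuadParamLE X V 2 := by
  have h1 : ⁅⁅V, B⁆, B⁆ = ⊥ := commutator_eq_bot_iff'.2 (le_centralizer_iff.1 hq)
  refine ⟨B, hB, ⟨hne, fun b hb => mem_centralizer_iff.2 fun v hv => ?_, fun b hb b' hb' => ?_⟩, h1, ho.relIndex⟩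
  · have h2 := comm_of_mem (hq (commutator_mem_commutator hv hb)) hb
    have h3 := (elem_iff.1 hV).2 _ (commutator_le_of_le_norm hn (commutator_mem_commutator hv hb))
    calc v * b ^ 2 = ⁅v, b⁆ * (b * ⁅v, b⁆) * b * v := by simp only [commutatorElement_def, pow_two]; group
      _ = _ := by rw [h2, ← mul_assoc, ← pow_two, h3, one_mul, pow_two]
  · exact le_centralizer_iff.1 (commutator_eq_bot_iff'.1 (commutator_commutator_eq_bot_of_rotate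
      (by rwa [commutator_comm B]) h1)) (commutator_mem_commutator hb hb')

theorem cj_thom_le {T : Subgroup G} {g : G} (h : cj g (𝐉[2] T) ≤ T) : g ∈ 𝒩(𝐉[2] T) := by
  refine mem_norm_of_cj_le (cj_le_iff.2 (thompsonSubgroupOf_le_iff.2 fun A hA => cj_le_iff.1 ?_))
  exact le_thompsonSubgroupOf (mem_meaIn_of_card_le hA ((cj_mono g (le_thompsonSubgroupOf hA)).trans h)
    (elem_map _ hA.2.1) (card_cj g A).ge)

/-- the qrc-lemma -/
theorem qrc {T M M₀ H V : Subgroup G} (hT : IsSylowIn 2 T ⊤) (hE : EvenCh T) (hM : IsCharP 2 M) (hTM : T ≤ M₀)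
    (hM₀ : M₀ ≤ M) (hH : IsCharP 2 H) (hU : UMax T (H ⊓ M) H) (hV : IsElementaryAbelian 2 V) (hVM : V ≤ M₀)
    (hn : M₀ ≤ 𝒩(V)) (hR : pCoreOf 2 M₀ = T ⊓ 𝒞(V))
    (hwc : ∀ g ∈ H ⊓ M, cj g (pCoreOf 2 M₀) ≤ T → cj g (pCoreOf 2 M₀) ≤ pCoreOf 2 M₀) :
    (∃ D : Subgroup G, D ≠ ⊥ ∧ D ≤ pCoreOf 2 M₀ ∧ M₀ ⊔ H ≤ 𝒩(D)) ∨
      (¬ V ≤ pCoreOf 2 H ∧ CubicParamLE M₀ V 2) ∨ QuadParamLE M₀ V 2 := by
  rw [or_iff_not_imp_left, or_iff_not_imp_right]
  intro h1 h3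
  have hq : NoQ T V := fun B hB a b c => h3 (quad_of_off2 hV (hB.trans hTM) (hB.trans (hTM.trans hn)) a b c)
  have h₀ : M₀ ≤ 𝒩(pCoreOf 2 M₀) := self_le_norm_core M₀
  have hVR : V ≤ pCoreOf 2 M₀ := CL.Even.le_core hVM (elem_isP hV) hn
  have hOM : pCoreOf 2 M ≤ pCoreOf 2 M₀ :=
    core_le_core_of_le ((core_le_syl (hT.of_le (hTM.trans hM₀) le_top)).trans hTM) hM₀
  generalize pCoreOf 2 M₀ = R at *
  have hRT : R ≤ T := hR.le.trans inf_le_left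
  have hRV : R ≤ 𝒞(V) := hR.le.trans inf_le_right
  have hJV : 𝐉[2] T ≤ 𝒞(V) := by
    by_contra e
    obtain ⟨A, hA, a, b, c⟩ := exists_mea_quad hV (hVR.trans hRT) (hTM.trans hn) e
    exact a (hq.le_cent hA.1 b c)
  have hJ : 𝐉[2] T ≤ R := (le_inf (thompsonSubgroupOf_le T) hJV).trans hR.ge
  have hB : 𝐁[2] T ≤ R :=
    (le_inf (bau_le T) (bau_le_cent_of (hVR.trans hRT) hV (le_centralizer_iff.1 hJV))).trans hR.ge
  have hTH := hT.of_le hU.le_self le_top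
  have hJ1 : 𝐉[2] T ≠ ⊥ := thompsonSubgroupOf_ne_bot_of_isPGroup hT.isPGroup fun e =>
    hH.core_ne_bot (ne_bot_of_gt hU.lt) (eq_bot_iff.2 ((core_le_syl hTH).trans e.le))
  have hno : ∀ D : Subgroup G, D ≠ ⊥ → D ≤ R → M₀ ≤ 𝒩(D) → H ⊓ 𝒩(D) ≤ M := fun D a b c =>
    (hU.inf_norm_le (hTM.trans c) fun d => h1 ⟨D, a, b, sup_le c d⟩).trans inf_le_right
  have hNJ := hno _ hJ1 hJ (thompsonSubgroupOf_eq_of_le hJ hRT ▸ le_norm_thom h₀)
  obtain ⟨H', T', M', hH', hHM, hT', hM', hO', k⟩ : ∃ H' T' M' : Subgroup G, H' ≤ H ∧ ¬ H' ≤ M ∧ T' ≤ T ∧ M' ≤ M ∧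
      IsSylowIn 2 T' H' ∧ R ⊔ pCoreOf 2 H ≤ T' ∧ UMax (R ⊔ pCoreOf 2 H) M' H' := by
    have a : R ⊔ pCoreOf 2 H ≤ T := sup_le hRT (core_le_syl hTH)
    obtain ⟨H₁, b, c⟩ := exists_umax_inf (a.trans (hTM.trans hM₀)) (a.trans hU.le_self)
      fun e => hU.not_le (le_inf le_rfl e)
    obtain ⟨T₁, d, e⟩ := exists_isSylowIn_ge (hT.isPGroup.to_le a) c.le_self
    obtain ⟨g, hg, f⟩ := syl_conj_le hTH d.isPGroup (d.le.trans b)
    have hgM : g ∈ M := hNJ ⟨hg, cj_thom_le ((cj_mono g (hJ.trans (le_sup_left.trans e))).trans f)⟩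
    have e' : cj g (R ⊔ pCoreOf 2 H) = R ⊔ pCoreOf 2 H := cj_eq (le_norm_sup (L := zpowers g) (zpowers_le.2
      (mem_norm_of_cj_le (hwc g ⟨hg, hgM⟩ ((cj_mono g (le_sup_left.trans e)).trans f))))
      (zpowers_le.2 (self_le_norm_core H hg)) (mem_zpowers g))
    exact ⟨_, _, _, cj_le_of_mem b hg, fun h => c.not_le (le_inf le_rfl ((cj_le_iff.1 h).trans
      (cj_eq (le_normalizer (inv_mem hgM))).le)), f, cj_le_of_mem inf_le_right hgM, syl_cj d g,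
      e'.ge.trans (cj_mono g e), e' ▸ c.cj g⟩
  obtain ⟨k₁, k₂⟩ := k
  have hRT' := le_sup_left.trans k₁
  have hOO := core_le_core_of_le (le_sup_right.trans k₂.le_self) hH'
  have hTM' : T' ≤ M' := k₂.le_of_not_le k₁ hO'.le fun e => hHM (e.trans (hT'.trans (hTM.trans hM₀)))
  have eJ := thompsonSubgroupOf_eq_of_le (hJ.trans hRT') hT'
  have hJ' : ¬ 𝐉[2] T ≤ pCoreOf 2 H' := fun e => hHM ((le_inf hH' (by
    rw [← thompsonSubgroupOf_eq_of_le e ((core_le_syl hO').trans hT')]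
    exact le_norm_thom (self_le_norm_core H'))).trans hNJ)
  have hVO : V ≤ 𝒞(pCoreOf 2 M) := le_centralizer_iff.1 (hOM.trans hRV)
  have h : Cfg H' T' M' R V (pCoreOf 2 M ⊓ 𝒞(pCoreOf 2 M)) := ⟨hH.of_core_le hH' (le_sup_right.trans k₂.le_self), hO',
    k₂.of_le (sup_le_sup_left hOO R) ((sup_le hRT' (core_le_syl hO')).trans hTM'), hTM', fun e => hJ' (hJ.trans e), hV,
    hVR.trans hRT', hT'.trans (hTM.trans hn), le_antisymm ((inf_le_inf_right _ hT').trans hR.ge) (le_inf hRT' hRV),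
    le_inf (hM.le_core (hVM.trans hM₀) hVO) hVO, center_le_cent _,
    hM'.trans (le_norm_inf (self_le_norm_core M) (le_norm_cent (self_le_norm_core M)))⟩
  have hMM : ∀ {L}, L ≤ H' → L ≤ M → L ≤ M' := fun a b => (le_inf a b).trans (k₂.le_of_not_le
    (le_inf k₂.le_self (k₂.le.trans hM')) inf_le_left fun e => hHM (e.trans inf_le_right))
  by_cases hVH : V ≤ pCoreOf 2 H'
  swap
  · obtain ⟨B, a, b, c, d, e⟩ := h.exists_cubic hVH
    refine ⟨fun f => hVH (f.trans hOO), B, a.trans (h.OT.trans (hT'.trans hTM)), ⟨c, fun x hx => ?_,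
      fun x hx y hy => ?_⟩, d, e.relIndex⟩
    · rw [(elem_iff.1 b).2 x hx]; exact one_mem _
    · rw [← comm_of_mem (elem_le_cent b hx) hy]; simp
  exfalso
  have fin : ∀ {L Q Z : Subgroup G}, L ≤ H' → ¬ L ≤ M → ¬ Pt (𝐁[2] R) L Q Z := fun a b c => by
    obtain ⟨D, d, e, f⟩ := pair_pt hT hE hTM hU hH ((bau_le R).trans hRT) (le_norm_bau h₀) c (a.trans hH')
      fun e => b (e.trans inf_le_right)
    exact h1 ⟨D, d, e.trans (bau_le R), f⟩
  by_cases hK : pResidualOf 2 H' ≤ 𝒞(V)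
  · have a := le_of_syl_of_res hO' h.TV (hK.trans (cent_le_norm V))
    obtain ⟨L, Q, Z, b, c, d⟩ := exists_pt (h.chp.of_normal inf_le_left (le_norm_inf le_normalizer (le_norm_cent a)))
      (h.cent ▸ syl_inf_cent hO' a) (fun e => hJ1 (eq_bot_iff.2 (hJ.trans e.le))) (hRT.trans (hTM.trans hM₀))
      (fun e => h.umaxT.not_res_le hO' (hMM (res_le H') ((le_inf (res_le H') hK).trans e))) h₀
      fun D x y z => (inf_le_inf_right _ (inf_le_left.trans hH')).trans (hno D x y z)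
    exact fin (b.trans inf_le_left) c d
  by_cases hZ : pResidualOf 2 H' ≤ 𝒞(𝛀[2] (pCoreOf 2 H'))
  · exact h.false_of_cent hVH (fun B a => hq B (a.trans (h.OT.trans hT'))) hK (eJ ▸ hJ') hZ
  obtain ⟨F, _, _, L, a, b, -⟩ := pmf_exists_E0_bau (pmf_of h.chp h.umaxT hO'
    (fun e => hHM ((le_inf hH' (eJ ▸ e)).trans hNJ)) hZ)
  rw [bau_eq_of_le (hB.trans hRT') hT', ← bau_eq_of_le hB hRT] at b
  have c : ¬ L ≤ M := fun e => b.umax.not_le (le_inf le_rfl (hMM a e))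
  exact fin a c (pt_of_noChar (fun C hC hch e => c ((le_inf (a.trans hH') e).trans
    (hno _ (fun e' => hC ((map_eq_bot_iff_of_injective _ (subtype_injective _)).1 e'))
      ((map_subtype_le C).trans (bau_le R))
      ((le_norm_bau h₀).trans (normalizer_le_normalizer_map_subtype C))))) b)

end CL.QT
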